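import Cfsg.Agent.H743.GG.Mackey2
import Cfsg.Agent.H743.GG.CountAbs
import Cfsg.Agent.H45.GG.Series
import Cfsg.Agent.Characters.Brauer

/-!
# Harish-Chandra induction for Levi decompositions in an arbitrary finite group (S4884, helper743)

`LV P L V` : `P = L V`, `V` normal in `P`, `L ∩ V = 1`; `H.pr : P →* L`; `HI H α = Ind_P^G (α ∘ pr)`.
* `inner_zero` : `[HI α, HI' β] = 0` if all Mackey terms are killed;
* `HI_eq_of_inner` : a subgroup `N` normalising `L` represents the double cosets which are not killed: if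
  `[HI α, HI β] ≠ 0` then `HI α = HI β`;
* `exists_irr`, `cusp_of` : Harish-Chandra series.
-/

set_option autoImplicit false

open scoped ComplexConjugate
open Cfsg

namespace Cfsg.Agent.H743.GG.LVs

open Cfsg.Agent.OddOrderCharacters.Clifford Cfsg.Agent.Characters Cfsg.Agent.H743.GG
open Cfsg.Agent.H246.Dl (const_of_sum_ne_zero)

variable {G : Type*} [Group G] {P L V P' L' V' : Subgroup G}

/-- `P = L V`, `V` normal in `P`, `L ∩ V = 1` -/
structure LV (P L V : Subgroup G) : Prop where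
  Lle : L ≤ P
  Vle : V ≤ P
  nor : ∀ p ∈ P, ∀ v ∈ V, p * v * p⁻¹ ∈ V
  inf : ∀ x ∈ L, x ∈ V → x = 1
  mul : ∀ p ∈ P, ∃ l ∈ L, ∃ v ∈ V, p = l * v

theorem LV.exists_pr (H : LV P L V) : ∃ f : P →* L, (∀ l (hl : l ∈ L), f ⟨l, H.Lle hl⟩ = ⟨l, hl⟩) ∧
    ∀ v (hv : v ∈ V), f ⟨v, H.Vle hv⟩ = 1 := by
  choose l hl v hv e using fun p : P => H.mul p p.2
  have huniq : ∀ (p : P) (l' : G) (_ : l' ∈ L) (v' : G) (_ : v' ∈ V), (p : G) = l' * v' → l p = l' := by
    intro p l' hl' v' hv' e'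
    have h1 : l'⁻¹ * l p = v' * (v p)⁻¹ := by
      have h2 := (e p).symm.trans e'
      have h3 : l p = l' * v' * (v p)⁻¹ := by rw [← h2]; group
      rw [h3]; group
    have h2 := H.inf _ (mul_mem (inv_mem hl') (hl p)) (by rw [h1]; exact mul_mem hv' (inv_mem (hv p)))
    exact (inv_mul_eq_one.1 h2).symm
  refine ⟨{ toFun := fun p => ⟨l p, hl p⟩, map_one' := ?_, map_mul' := ?_ }, ?_, ?_⟩
  · exact Subtype.ext (huniq 1 1 (one_mem _) 1 (one_mem _) (by simp))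
  · intro p q
    refine Subtype.ext (huniq (p * q) (l p * l q) (mul_mem (hl p) (hl q)) (((l q)⁻¹ * v p * l q) * v q) ?_ ?_)
    · have h1 := H.nor (l q)⁻¹ (H.Lle (inv_mem (hl q))) (v p) (hv p)
      rw [inv_inv] at h1
      exact mul_mem h1 (hv q)
    · rw [Subgroup.coe_mul]
      conv_lhs => rw [e p, e q]
      group
  · intro x hx
    exact Subtype.ext (huniq ⟨x, H.Lle hx⟩ x hx 1 (one_mem _) (by simp))
  · intro x hx
    exact Subtype.ext (huniq ⟨x, H.Vle hx⟩ 1 (one_mem _) x hx (by simp))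

/-- the projection -/
noncomputable def LV.pr (H : LV P L V) : P →* L := H.exists_pr.choose

theorem LV.pr_L (H : LV P L V) {l : G} (hl : l ∈ L) : H.pr ⟨l, H.Lle hl⟩ = ⟨l, hl⟩ := H.exists_pr.choose_spec.1 l hl

theorem LV.pr_V (H : LV P L V) {v : G} (hv : v ∈ V) : H.pr ⟨v, H.Vle hv⟩ = 1 := H.exists_pr.choose_spec.2 v hv

theorem LV.pr_surjective (H : LV P L V) : Function.Surjective H.pr := fun l => ⟨⟨l, H.Lle l.2⟩, H.pr_L l.2⟩

/-- Harish-Chandra induction -/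
noncomputable def HI [Fintype G] (H : LV P L V) (α : L → ℂ) : G → ℂ := indFun P (α ∘ H.pr)

theorem isCharacter_HI [Fintype G] (H : LV P L V) {α : L → ℂ} (hα : IsCharacter L α) : IsCharacter G (HI H α) :=
  Brauer.isCharacter_indFun P (Core.isCharacter_comp _ hα)

/-- `α = β^g` -/
def Tw (L L' : Subgroup G) (α : L → ℂ) (β : L' → ℂ) (g : G) : Prop :=
  ∀ l (hl : l ∈ L) (hl' : g⁻¹ * l * g ∈ L'), α ⟨l, hl⟩ = β ⟨g⁻¹ * l * g, hl'⟩

/-- the term of an element conjugating `L` to `L'` -/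
theorem term_eq [Finite G] [Fintype P] (H : LV P L V) (H' : LV P' L' V') {α : L → ℂ} {β : L' → ℂ}
    (hα : IsIrrCharacter L α) (hβ : IsIrrCharacter L' β) {g : G} (hL : ∀ l ∈ L, g⁻¹ * l * g ∈ L')
    (hL' : ∀ l ∈ L', g * l * g⁻¹ ∈ L) (hV : ∀ v ∈ V, g⁻¹ * v * g ∈ P' → g⁻¹ * v * g ∈ V')
    [Fintype (dsub₂ P P' g)] [Decidable (Tw L L' α β g)] :
    (Fintype.card (dsub₂ P P' g) : ℂ)⁻¹ * twist₂ P P' (α ∘ H.pr) (β ∘ H'.pr) g = if Tw L L' α β g then 1 else 0 := by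
  classical
  have : Fintype ↥L := Fintype.ofFinite _
  have hαP : IsIrrCharacter _ (α ∘ H.pr) := Core.isIrr_comp _ H.pr_surjective hα
  have hβP : IsIrrCharacter _ (β ∘ H'.pr) := Core.isIrr_comp _ H'.pr_surjective hβ
  split_ifs with hw
  · rw [twist₂_eq_classInner]
    let f : ↥L →* dsub₂ P P' g :=
      { toFun := fun l => ⟨⟨l, H.Lle l.2⟩, (mem_dsub₂ _ _ _ _).2 (H'.Lle (hL l l.2))⟩
        map_one' := rfl
        map_mul' := fun _ _ => rfl }
    have e1 : (β ∘ H'.pr) ∘ dhom₂ P P' g = (α ∘ H.pr) ∘ (dsub₂ P P' g).subtype := by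
      funext d
      obtain ⟨l, hl, v, hv, e⟩ := H.mul (d : P) (d : P).2
      have hl' := hL l hl
      have hd : g⁻¹ * ((d : P) : G) * g ∈ P' := (mem_dsub₂ _ _ _ _).1 d.2
      have hv' : g⁻¹ * v * g ∈ V' := by
        refine hV v hv ?_
        have e2 : g⁻¹ * v * g = (g⁻¹ * l * g)⁻¹ * (g⁻¹ * ((d : P) : G) * g) := by rw [e]; group
        rw [e2]
        exact mul_mem (inv_mem (H'.Lle hl')) hd
      have h1 : (dhom₂ P P' g d : P') = ⟨g⁻¹ * l * g, H'.Lle hl'⟩ * ⟨g⁻¹ * v * g, H'.Vle hv'⟩ := Subtype.ext (by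
        change g⁻¹ * ((d : P) : G) * g = (g⁻¹ * l * g) * (g⁻¹ * v * g)
        rw [e]; group)
      have h2 : ((dsub₂ P P' g).subtype d : P) = ⟨l, H.Lle hl⟩ * ⟨v, H.Vle hv⟩ := Subtype.ext e
      rw [Function.comp_apply, Function.comp_apply, Function.comp_apply, Function.comp_apply, h1, h2, map_mul, map_mul,
        H.pr_L hl, H.pr_V hv, H'.pr_L hl', H'.pr_V hv', mul_one, mul_one]
      exact (hw l hl hl').symm
    rw [e1]
    have hi : IsCharacter _ ((α ∘ H.pr) ∘ (dsub₂ P P' g).subtype) := Core.isCharacter_comp _ (Core.isIrr_isCharacter hαP)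
    have h1 : IsIrrCharacter _ (((α ∘ H.pr) ∘ (dsub₂ P P' g).subtype) ∘ f) := by
      have : (((α ∘ H.pr) ∘ (dsub₂ P P' g).subtype) ∘ f) = α := by
        funext l
        exact congrArg α (H.pr_L l.2)
      rw [this]
      exact hα
    exact Core.classInner_irr_self (Cfsg.Agent.H641.Gow.isIrr_of_comp f hi h1)
  · rw [twist₂_eq_zero_of_sub P P' (Core.isIrr_isCharacter hαP) (Core.isIrr_isCharacter hβP) g L H.Lle
      (fun l hl => H'.Lle (hL l hl)), mul_zero]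
    let cj : ↥L ≃* ↥L' :=
      { toFun := fun l => ⟨g⁻¹ * l * g, hL l l.2⟩
        invFun := fun l => ⟨g * l * g⁻¹, hL' l l.2⟩
        left_inv := fun l => Subtype.ext (by simp only; group)
        right_inv := fun l => Subtype.ext (by simp only; group)
        map_mul' := fun a b => Subtype.ext (by simp only [Subgroup.coe_mul]; group) }
    have hβc : IsIrrCharacter _ (β ∘ cj) := Core.isIrr_comp cj.toMonoidHom cj.surjective hβ
    have hne : α ≠ β ∘ cj := by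
      intro he
      apply hw
      intro l hl hl'
      rw [he]
      rfl
    have h4 := Core.classInner_irr_ne hα hβc hne
    rw [Core.classInner_def, mul_eq_zero] at h4
    rcases h4 with h4 | h4
    · exact absurd (inv_eq_zero.1 h4) Core.card_ne_zero_complex
    · rw [← h4]
      refine Finset.sum_congr rfl fun l _ => ?_
      have e1 : (α ∘ H.pr) ⟨(l : G), H.Lle l.2⟩ = α l := congrArg α (H.pr_L l.2)
      have e2 : (β ∘ H'.pr) ⟨g⁻¹ * (l : G) * g, H'.Lle (hL l l.2)⟩ = (β ∘ cj) l := congrArg β (H'.pr_L (hL l l.2))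
      rw [e1, e2]

/-- killed on the left -/
theorem kill_left [Finite G] [Fintype P] (H : LV P L V) (H' : LV P' L' V') {α : L → ℂ} {β : L' → ℂ}
    (hα : IsCharacter L α) (hβ : IsCharacter L' β) {E : Subgroup G} [Fintype E] (hE : E ≤ L)
    (h0 : ∑ e : E, α ⟨e, hE e.2⟩ = 0) {a g b x : G} (ha : a ∈ P) (hb : b ∈ P') (hx : x = a * g * b)
    (hg : ∀ e ∈ E, g⁻¹ * e * g ∈ V') : twist₂ P P' (α ∘ H.pr) (β ∘ H'.pr) x = 0 := by
  classical
  have hαP : IsCharacter _ (α ∘ H.pr) := Core.isCharacter_comp _ hα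
  have hβP : IsCharacter _ (β ∘ H'.pr) := Core.isCharacter_comp _ hβ
  rw [hx, twist₂_mul P P' (Core.isCharacter_isClassFunction hαP) (Core.isCharacter_isClassFunction hβP) ha hb]
  refine twist₂_eq_zero_of_sub P P' hαP hβP g E (fun e he => H.Lle (hE he)) (fun e he => H'.Vle (hg e he)) ?_
  have h3 : ∀ e : E, (α ∘ H.pr) ⟨e, H.Lle (hE e.2)⟩ * conj ((β ∘ H'.pr) ⟨g⁻¹ * e * g, H'.Vle (hg e e.2)⟩) =
      α ⟨e, hE e.2⟩ * conj (β 1) := by
    intro e
    rw [Function.comp_apply, Function.comp_apply, H'.pr_V (hg e e.2), H.pr_L (hE e.2)]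
  rw [Finset.sum_congr rfl fun e _ => h3 e, ← Finset.sum_mul, h0, zero_mul]

/-- killed on the right -/
theorem kill_right [Finite G] [Fintype P] (H : LV P L V) (H' : LV P' L' V') {α : L → ℂ} {β : L' → ℂ}
    (hα : IsCharacter L α) (hβ : IsCharacter L' β) {E : Subgroup G} [Fintype E] (hE : E ≤ L')
    (h0 : ∑ e : E, β ⟨e, hE e.2⟩ = 0) {a g b x : G} (ha : a ∈ P) (hb : b ∈ P') (hx : x = a * g * b)
    (hg : ∀ e ∈ E, g * e * g⁻¹ ∈ V) : twist₂ P P' (α ∘ H.pr) (β ∘ H'.pr) x = 0 := by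
  classical
  have hαP : IsCharacter _ (α ∘ H.pr) := Core.isCharacter_comp _ hα
  have hβP : IsCharacter _ (β ∘ H'.pr) := Core.isCharacter_comp _ hβ
  rw [hx, twist₂_mul P P' (Core.isCharacter_isClassFunction hαP) (Core.isCharacter_isClassFunction hβP) ha hb]
  let F : Subgroup G := E.map (MulAut.conj g).toMonoidHom
  have : Fintype F := Fintype.ofFinite _
  have hF : ∀ l ∈ F, g⁻¹ * l * g ∈ E := by
    rintro _ ⟨u, hu, rfl⟩
    have : g⁻¹ * ((MulAut.conj g).toMonoidHom u) * g = u := by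
      change g⁻¹ * (g * u * g⁻¹) * g = u
      group
    rw [this]
    exact hu
  have hFV : ∀ l ∈ F, l ∈ V := by
    rintro _ ⟨u, hu, rfl⟩
    exact hg u hu
  refine twist₂_eq_zero_of_sub P P' hαP hβP g F (fun l hl => H.Vle (hFV l hl)) (fun l hl => H'.Lle (hE (hF l hl))) ?_
  have h3 : ∀ l : F, (α ∘ H.pr) ⟨l, H.Vle (hFV l l.2)⟩ * conj ((β ∘ H'.pr) ⟨g⁻¹ * l * g, H'.Lle (hE (hF l l.2))⟩) =
      α 1 * conj (β ⟨g⁻¹ * l * g, hE (hF l l.2)⟩) := by
    intro l
    rw [Function.comp_apply, Function.comp_apply, H.pr_V (hFV l l.2), H'.pr_L (hE (hF l l.2))]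
  rw [Finset.sum_congr rfl fun l _ => h3 l, ← Finset.mul_sum, ← map_sum]
  have h4 : ∑ l : F, β ⟨g⁻¹ * l * g, hE (hF l l.2)⟩ = ∑ u : E, β ⟨u, hE u.2⟩ := by
    refine Fintype.sum_bijective (fun l : F => (⟨g⁻¹ * l * g, hF l l.2⟩ : E)) ?_ _ _ fun l => rfl
    constructor
    · intro a b hab
      have := congrArg Subtype.val hab
      simp only at this
      exact Subtype.ext (mul_left_cancel (mul_right_cancel this))
    · intro u
      refine ⟨⟨g * u * g⁻¹, ⟨u, u.2, rfl⟩⟩, Subtype.ext ?_⟩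
      simp only
      group
  rw [h4, h0, map_zero, mul_zero]

/-- **disjoint series** -/
theorem inner_zero [Fintype G] [Fintype P] (H : LV P L V) (H' : LV P' L' V') {α : L → ℂ} {β : L' → ℂ}
    (hkill : ∀ x, twist₂ P P' (α ∘ H.pr) (β ∘ H'.pr) x = 0) : classInner (HI H α) (HI H' β) = 0 := by
  unfold HI
  rw [classInner_indFun_indFun₂, Finset.sum_eq_zero fun x _ => hkill x, mul_zero, mul_zero]

/-! ### One Levi subgroup -/

/-- `N` normalises `L` and represents double cosets -/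
structure Rep (P L V N : Subgroup G) : Prop where
  le : L ≤ N
  nor : ∀ n ∈ N, ∀ l ∈ L, n⁻¹ * l * n ∈ L
  hV : ∀ n ∈ N, ∀ v ∈ V, n⁻¹ * v * n ∈ P → n⁻¹ * v * n ∈ V
  dis : ∀ n ∈ N, ∀ n' ∈ N, DC₂ P P n n' → n⁻¹ * n' ∈ L

theorem Rep.nor' {N : Subgroup G} (K : Rep P L V N) {n : G} (hn : n ∈ N) {l : G} (hl : l ∈ L) : n * l * n⁻¹ ∈ L := by
  have := K.nor n⁻¹ (inv_mem hn) l hl
  rwa [inv_inv] at this

theorem Tw.mul {N : Subgroup G} (K : Rep P L V N) {α β γ : L → ℂ} {g g' : G} (hg : g ∈ N) (h1 : Tw L L α β g)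
    (h2 : Tw L L β γ g') : Tw L L α γ (g * g') := by
  intro l hl hl'
  have h3 := K.nor g hg l hl
  have e : (g * g')⁻¹ * l * (g * g') = g'⁻¹ * (g⁻¹ * l * g) * g' := by group
  have h4 : g'⁻¹ * (g⁻¹ * l * g) * g' ∈ L := by rwa [e] at hl'
  rw [h1 l hl h3, h2 _ h3 h4]
  congr 1
  exact Subtype.ext e.symm

theorem Tw.inv {α β : L → ℂ} {g : G} (h1 : Tw L L α β g) : Tw L L β α g⁻¹ := by
  intro l hl hl'
  have e : g⁻¹ * (g⁻¹⁻¹ * l * g⁻¹) * g = l := by group
  have h2 : g⁻¹ * (g⁻¹⁻¹ * l * g⁻¹) * g ∈ L := by rw [e]; exact hl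
  rw [h1 _ hl' h2]
  congr 1
  exact Subtype.ext e.symm

theorem tw_of_mem {β : L → ℂ} (hβ : IsClassFunction L β) {g : G} (hg : g ∈ L) : Tw L L β β g := by
  intro l hl hl'
  have h1 := hβ ⟨l, hl⟩ (⟨g, hg⟩ : L)⁻¹
  rw [← h1]
  congr 1
  apply Subtype.ext
  simp only [Subgroup.coe_mul, InvMemClass.coe_inv, inv_inv]

/-- the set of cosets `n L` with `α = β^n` -/
def SQ (L N : Subgroup G) (α β : L → ℂ) : Set (↥N ⧸ L.subgroupOf N) :=
  {q | Tw L L α β ((Quotient.out q : ↥N) : G)}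

theorem mk_mem_SQ {N : Subgroup G} (K : Rep P L V N) {α β : L → ℂ} (hβ : IsClassFunction L β) (n : N) :
    (QuotientGroup.mk n : ↥N ⧸ L.subgroupOf N) ∈ SQ L N α β ↔ Tw L L α β (n : G) := by
  obtain ⟨q, hq⟩ : ∃ q : ↥N ⧸ L.subgroupOf N, q = QuotientGroup.mk n := ⟨_, rfl⟩
  have h1 : (QuotientGroup.mk (Quotient.out q : ↥N) : ↥N ⧸ L.subgroupOf N) = QuotientGroup.mk n := by
    rw [← hq]; exact Quotient.out_eq q
  rw [QuotientGroup.eq, Subgroup.mem_subgroupOf] at h1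
  rw [← hq]
  change Tw L L α β ((Quotient.out q : ↥N) : G) ↔ _
  have h2 : ((Quotient.out q : ↥N) : G)⁻¹ * n ∈ L := h1
  have h3 : (n : G)⁻¹ * (Quotient.out q : ↥N) ∈ L := by
    have := inv_mem h2
    rwa [mul_inv_rev, inv_inv] at this
  constructor
  · intro h
    have := Tw.mul K (Quotient.out q : ↥N).2 h (tw_of_mem hβ h2)
    rwa [mul_inv_cancel_left] at this
  · intro h
    have := Tw.mul K n.2 h (tw_of_mem hβ h3)
    rwa [mul_inv_cancel_left] at this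

/-- **Mackey's formula for one Levi subgroup.** -/
theorem classInner_HI [Fintype G] (H : LV P L V) {N : Subgroup G} (K : Rep P L V N) {α β : L → ℂ}
    (hα : IsIrrCharacter L α) (hβ : IsIrrCharacter L β)
    (hkill : ∀ x, (∀ n ∈ N, ¬ DC₂ P P n x) → ∀ [Fintype P], twist₂ P P (α ∘ H.pr) (β ∘ H.pr) x = 0) :
    classInner (HI H α) (HI H β) = ((SQ L N α β).ncard : ℂ) := by
  classical
  have : Fintype P := Fintype.ofFinite _
  have : Fintype (↥N ⧸ L.subgroupOf N) := Fintype.ofFinite _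
  have hαP : IsIrrCharacter _ (α ∘ H.pr) := Core.isIrr_comp _ H.pr_surjective hα
  have hβP : IsIrrCharacter _ (β ∘ H.pr) := Core.isIrr_comp _ H.pr_surjective hβ
  have hmain := classInner_indFun_eq_sum₂ P P (Core.isIrr_isClassFunction hαP) (Core.isIrr_isClassFunction hβP)
    (fun q : ↥N ⧸ L.subgroupOf N => ((Quotient.out q : ↥N) : G)) ?_ ?_
  · unfold HI
    rw [hmain]
    refine (Finset.sum_congr rfl fun q _ => term_eq H H hα hβ (K.nor _ (Quotient.out q : ↥N).2)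
      (fun l hl => K.nor' (Quotient.out q : ↥N).2 hl) (K.hV _ (Quotient.out q : ↥N).2)).trans ?_
    rw [Finset.sum_boole]
    congr 1
    rw [← Set.ncard_coe_finset]
    congr 1
    ext q
    simp only [Finset.coe_filter, Finset.mem_univ, true_and]
    rfl
  · intro q q' hqq
    have h1 := K.dis _ (Quotient.out q : ↥N).2 _ (Quotient.out q' : ↥N).2 hqq
    rw [← Quotient.out_eq q, ← Quotient.out_eq q']
    change (QuotientGroup.mk (Quotient.out q) : ↥N ⧸ L.subgroupOf N) = QuotientGroup.mk (Quotient.out q')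
    rw [QuotientGroup.eq, Subgroup.mem_subgroupOf]
    exact h1
  · intro x hx
    refine hkill x fun n hn hd => ?_
    let q : ↥N ⧸ L.subgroupOf N := QuotientGroup.mk ⟨n, hn⟩
    have h1 : (QuotientGroup.mk (Quotient.out q : ↥N) : ↥N ⧸ L.subgroupOf N) = QuotientGroup.mk ⟨n, hn⟩ :=
      Quotient.out_eq q
    rw [QuotientGroup.eq, Subgroup.mem_subgroupOf] at h1
    have h2 : ((Quotient.out q : ↥N) : G)⁻¹ * n ∈ L := h1
    obtain ⟨a, ha, b, hb, e⟩ := hd
    refine hx q ⟨a, ha, (((Quotient.out q : ↥N) : G)⁻¹ * n) * b, mul_mem (H.Lle h2) hb, ?_⟩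
    rw [e]
    group

/-- **Harish-Chandra series are disjoint or equal.** -/
theorem HI_eq_of_inner [Fintype G] (H : LV P L V) {N : Subgroup G} (K : Rep P L V N) {α β : L → ℂ}
    (hα : IsIrrCharacter L α) (hβ : IsIrrCharacter L β)
    (hkill : ∀ γ ∈ ({α, β} : Set (L → ℂ)), ∀ δ ∈ ({α, β} : Set (L → ℂ)), ∀ x, (∀ n ∈ N, ¬ DC₂ P P n x) →
      ∀ [Fintype P], twist₂ P P (γ ∘ H.pr) (δ ∘ H.pr) x = 0)
    (hne : classInner (HI H α) (HI H β) ≠ 0) : HI H α = HI H β := by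
  classical
  have hαc := Core.isIrr_isClassFunction hα
  have hβc := Core.isIrr_isClassFunction hβ
  have ha : α ∈ ({α, β} : Set (L → ℂ)) := Or.inl rfl
  have hb : β ∈ ({α, β} : Set (L → ℂ)) := Or.inr rfl
  have e1 := classInner_HI H K hα hβ (hkill α ha β hb)
  have h0 : (SQ L N α β).Nonempty := by
    by_contra hcon
    rw [Set.not_nonempty_iff_eq_empty] at hcon
    rw [e1, hcon, Set.ncard_empty, Nat.cast_zero] at hne
    exact hne rfl
  obtain ⟨q₀, hq₀⟩ := h0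
  have hNor : (L.subgroupOf N).Normal := by
    refine ⟨fun l hl n => ?_⟩
    rw [Subgroup.mem_subgroupOf] at hl ⊢
    exact K.nor' n.2 hl
  -- elements of the quotient group
  have hmul : ∀ {α β γ : L → ℂ}, IsClassFunction L β → IsClassFunction L γ → ∀ q ∈ SQ L N α β, ∀ q' ∈ SQ L N β γ,
      q * q' ∈ SQ L N α γ := by
    intro α β γ hβ hγ q hq q' hq'
    obtain ⟨n, rfl⟩ := QuotientGroup.mk_surjective q
    obtain ⟨n', rfl⟩ := QuotientGroup.mk_surjective q'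
    rw [← QuotientGroup.mk_mul, mk_mem_SQ K hγ]
    exact Tw.mul K n.2 ((mk_mem_SQ K hβ n).1 hq) ((mk_mem_SQ K hγ n').1 hq')
  have hinv : ∀ {α β : L → ℂ}, IsClassFunction L α → IsClassFunction L β → ∀ q ∈ SQ L N α β, q⁻¹ ∈ SQ L N β α := by
    intro α β hα hβ q hq
    obtain ⟨n, rfl⟩ := QuotientGroup.mk_surjective q
    rw [← QuotientGroup.mk_inv, mk_mem_SQ K hα]
    exact Tw.inv ((mk_mem_SQ K hβ n).1 hq)
  have h1 : (SQ L N α β).ncard = (SQ L N α α).ncard := by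
    have h1 : SQ L N α β = (fun q => q * q₀) '' (SQ L N α α) := by
      ext q
      constructor
      · intro hq
        exact ⟨q * q₀⁻¹, hmul hβc hαc _ hq _ (hinv hαc hβc _ hq₀), inv_mul_cancel_right q q₀⟩
      · rintro ⟨v, hv, rfl⟩
        exact hmul hαc hβc _ hv _ hq₀
    rw [h1, Set.ncard_image_of_injective _ (mul_left_injective q₀)]
  have h2 : (SQ L N α β).ncard = (SQ L N β β).ncard := by
    have h1 : SQ L N α β = (fun q => q₀ * q) '' (SQ L N β β) := by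
      ext q
      constructor
      · intro hq
        exact ⟨q₀⁻¹ * q, hmul hαc hβc _ (hinv hαc hβc _ hq₀) _ hq, mul_inv_cancel_left q₀ q⟩
      · rintro ⟨v, hv, rfl⟩
        exact hmul hβc hβc _ hq₀ _ hv
    rw [h1, Set.ncard_image_of_injective _ (mul_right_injective q₀)]
  have e2 : classInner (HI H α) (HI H α) = ((SQ L N α β).ncard : ℂ) := by
    rw [classInner_HI H K hα hα (hkill α ha α ha), h1]
  have e3 : classInner (HI H β) (HI H β) = ((SQ L N α β).ncard : ℂ) := by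
    rw [classInner_HI H K hβ hβ (hkill β hb β hb), h2]
  have e4 : classInner (HI H β) (HI H α) = ((SQ L N α β).ncard : ℂ) := by
    rw [← Core.classInner_conj_symm, e1, Complex.conj_natCast]
  have hd : classInner (HI H α - HI H β) (HI H α - HI H β) = 0 := by
    rw [Core.classInner_sub_left, Core.classInner_sub_right, Core.classInner_sub_right, e1, e2, e3, e4]
    ring
  exact sub_eq_zero.1 (Core.classInner_self_eq_zero hd)

/-! ### Series -/

/-- restriction to a subgroup: multiplicities -/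
theorem exists_comb [Finite G] (P : Subgroup G) {χ : G → ℂ} (hχ : IsCharacter G χ) [Fintype P]
    [Fintype (IrrCharacter P)] :
    ∃ m : IrrCharacter P → ℕ, (∀ p : P, χ p = ∑ ψ, (m ψ : ℂ) * (ψ : P → ℂ) p) ∧
      ∀ ψ : IrrCharacter P, classInner (χ ∘ P.subtype) (ψ : P → ℂ) = m ψ := by
  classical
  have hres : IsCharacter P (χ ∘ P.subtype) := Core.isCharacter_comp _ hχ
  obtain ⟨m, hm⟩ := Core.exists_nat_comb hres
  refine ⟨m, fun p => ?_, fun ψ => ?_⟩
  · have h2 := congrFun hm p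
    simp only [Finset.sum_apply, nsmul_eq_mul] at h2
    exact h2
  · rw [hm, Core.classInner_sum_nsmul_irr]

theorem frob [Fintype G] [Fintype P] (H : LV P L V) {α : L → ℂ} (hα : IsIrrCharacter L α) {χ : G → ℂ}
    (hχ : IsIrrCharacter G χ) :
    classInner (HI H α) χ = classInner (χ ∘ P.subtype) (α ∘ H.pr) := by
  have h1 : IsCharacter P (α ∘ H.pr) := Core.isCharacter_comp _ (Core.isIrr_isCharacter hα)
  have h2 : IsCharacter P (χ ∘ P.subtype) := Core.isCharacter_comp _ (Core.isIrr_isCharacter hχ)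
  unfold HI
  rw [classInner_indFun P _ χ (Core.isIrr_isClassFunction hχ)]
  obtain ⟨k, hk⟩ := Core.classInner_isNat h1 h2
  have h3 : classInner (α ∘ H.pr) (fun h : P => χ h) = k := hk
  rw [h3, ← Core.classInner_conj_symm]
  change (k : ℂ) = conj (classInner (α ∘ H.pr) (χ ∘ P.subtype))
  rw [hk, Complex.conj_natCast]

/-- **An irreducible character with `V`-fixed vectors lies in some `HI α`.** -/
theorem exists_irr [Fintype G] (H : LV P L V) {χ : G → ℂ} (hχ : IsIrrCharacter G χ) [Fintype V]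
    (h0 : ∑ v : V, χ v ≠ 0) : ∃ α : L → ℂ, IsIrrCharacter L α ∧ classInner (HI H α) χ ≠ 0 := by
  classical
  have : Fintype P := Fintype.ofFinite _
  have : Fintype L := Fintype.ofFinite _
  have : Finite (IrrCharacter P) := Core.finite_irr
  have : Fintype (IrrCharacter P) := Fintype.ofFinite _
  obtain ⟨m, hm, hm'⟩ := exists_comb P (Core.isIrr_isCharacter hχ)
  have hNor : (V.subgroupOf P).Normal := by
    refine ⟨fun v hv p => ?_⟩
    rw [Subgroup.mem_subgroupOf] at hv ⊢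
    exact H.nor p p.2 _ hv
  have : Fintype (V.subgroupOf P) := Fintype.ofFinite _
  have h1 : (∑ v : V, χ v : ℂ) =
      ∑ ψ : IrrCharacter P, (m ψ : ℂ) * ∑ v : V, (ψ : P → ℂ) ⟨v, H.Vle v.2⟩ := by
    symm
    simp only [Finset.mul_sum]
    rw [Finset.sum_comm]
    exact Finset.sum_congr rfl fun v _ => (hm ⟨v, H.Vle v.2⟩).symm
  rw [h1] at h0
  obtain ⟨ψ, -, hψ⟩ := Finset.exists_ne_zero_of_sum_ne_zero h0
  have hm0 : (m ψ : ℂ) ≠ 0 := left_ne_zero_of_mul hψ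
  have hs0 := right_ne_zero_of_mul hψ
  have hV : ∀ (v : G) (hv : v ∈ V), (ψ : P → ℂ) ⟨v, H.Vle hv⟩ = (ψ : P → ℂ) 1 := fun v hv =>
    const_of_sum_ne_zero (V.subgroupOf P) ψ.2 (by
      intro h0
      apply hs0
      rw [← h0]
      exact (Fintype.sum_equiv (Subgroup.subgroupOfEquivOfLe H.Vle).symm.toEquiv _ _ fun v => rfl)) _
      (by rw [Subgroup.mem_subgroupOf]; exact hv)
  let α : L → ℂ := (ψ : P → ℂ) ∘ Subgroup.inclusion H.Lle
  have hαc : IsCharacter _ α := Core.isCharacter_comp _ (Core.isIrr_isCharacter ψ.2)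
  have hαψ : α ∘ H.pr = (ψ : P → ℂ) := by
    funext q
    obtain ⟨l, hl, v, hv, hq⟩ := H.mul q q.2
    have e1 : q = ⟨l, H.Lle hl⟩ * ⟨v, H.Vle hv⟩ := Subtype.ext hq
    rw [e1, Cfsg.Agent.H45.GG.apply_mul_ker (Core.isIrr_isCharacter ψ.2) (hV v hv), Function.comp_apply, map_mul,
      H.pr_L hl, H.pr_V hv, mul_one]
    rfl
  have hα : IsIrrCharacter _ α := Cfsg.Agent.H641.Gow.isIrr_of_comp H.pr hαc (by rw [hαψ]; exact ψ.2)
  refine ⟨α, hα, ?_⟩
  rw [frob H hα hχ, hαψ, hm' ψ]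
  exact hm0

/-- **cuspidality** -/
theorem cusp_of [Fintype G] (H : LV P L V) {U E : Subgroup G} (HU : LV U E V) (hE : E ≤ L) {χ : G → ℂ}
    (hχ : IsIrrCharacter G χ) {α : L → ℂ} (hα : IsIrrCharacter L α) (hne : classInner (HI H α) χ ≠ 0) [Fintype U]
    [Fintype E] (h0 : ∑ u : U, χ u = 0) : ∑ e : E, α ⟨e, hE e.2⟩ = 0 := by
  classical
  have : Fintype P := Fintype.ofFinite _
  have : Fintype L := Fintype.ofFinite _
  have : Finite (IrrCharacter P) := Core.finite_irr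
  have : Fintype (IrrCharacter P) := Fintype.ofFinite _
  have hUP : U ≤ P := by
    intro u hu
    obtain ⟨e, he, v, hv, rfl⟩ := HU.mul u hu
    exact mul_mem (H.Lle (hE he)) (H.Vle hv)
  obtain ⟨m, hm, hm'⟩ := exists_comb P (Core.isIrr_isCharacter hχ)
  -- all the constituents have sum zero
  have hnat : ∀ ψ : IrrCharacter P, ∃ k : ℕ, ∑ u : U, (ψ : P → ℂ) ⟨u, hUP u.2⟩ = (Nat.card U : ℂ) * k := by
    intro ψ
    obtain ⟨k, hk⟩ := Core.classInner_isNat (Core.isCharacter_comp (Subgroup.inclusion hUP) (Core.isIrr_isCharacter ψ.2))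
      (Core.isIrr_isCharacter (Linear.isIrrCharacter_hom (1 : ↥U →* ℂˣ)))
    refine ⟨k, ?_⟩
    rw [← hk, Core.classInner_def, ← mul_assoc, mul_inv_cancel₀ Core.card_ne_zero_complex, one_mul]
    refine Finset.sum_congr rfl fun u _ => ?_
    simp
    rfl
  choose k hk using hnat
  have hU0 : (Nat.card U : ℂ) ≠ 0 := Core.card_ne_zero_complex
  have h1 : (∑ ψ : IrrCharacter P, ((m ψ * k ψ : ℕ) : ℂ)) = 0 := by
    have h2 : ∑ u : U, χ u = (Nat.card U : ℂ) * ∑ ψ : IrrCharacter P, ((m ψ * k ψ : ℕ) : ℂ) := by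
      have h3 : ∀ u : U, χ u = ∑ ψ, (m ψ : ℂ) * (ψ : P → ℂ) ⟨u, hUP u.2⟩ := fun u => hm ⟨u, hUP u.2⟩
      rw [Finset.sum_congr rfl fun u _ => h3 u, Finset.sum_comm, Finset.mul_sum]
      refine Finset.sum_congr rfl fun ψ _ => ?_
      rw [← Finset.mul_sum, hk ψ]
      push_cast
      ring
    rw [h0] at h2
    exact (mul_eq_zero.1 h2.symm).resolve_left hU0
  have h2 : ∀ ψ : IrrCharacter P, m ψ * k ψ = 0 := by
    have h3 : (∑ ψ : IrrCharacter P, m ψ * k ψ) = 0 := by exact_mod_cast h1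
    intro ψ
    exact (Finset.sum_eq_zero_iff.1 h3) ψ (Finset.mem_univ ψ)
  have hαP : IsIrrCharacter P (α ∘ H.pr) := Core.isIrr_comp _ H.pr_surjective hα
  have h3 := h2 ⟨_, hαP⟩
  rw [frob H hα hχ] at hne
  have h4 := hm' ⟨_, hαP⟩
  have h5 : m ⟨_, hαP⟩ ≠ 0 := by
    intro h6
    apply hne
    have h7 : classInner (χ ∘ P.subtype) (α ∘ H.pr) = (m ⟨_, hαP⟩ : ℂ) := h4
    rw [h7, h6, Nat.cast_zero]
  have h6 : k ⟨_, hαP⟩ = 0 := (Nat.mul_eq_zero.1 h3).resolve_left h5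
  have h7 := hk ⟨_, hαP⟩
  rw [h6, Nat.cast_zero, mul_zero] at h7
  have h8 : ∀ u : U, (α ∘ H.pr) ⟨u, hUP u.2⟩ = α ⟨HU.pr u, hE (HU.pr u).2⟩ := by
    intro u
    obtain ⟨e, he, v, hv, hq⟩ := HU.mul u u.2
    have e1 : u = ⟨e, HU.Lle he⟩ * ⟨v, HU.Vle hv⟩ := Subtype.ext hq
    have e2 : (⟨u, hUP u.2⟩ : P) = ⟨e, H.Lle (hE he)⟩ * ⟨v, H.Vle hv⟩ := Subtype.ext hq
    rw [e2, Function.comp_apply, map_mul, H.pr_L (hE he), H.pr_V hv, mul_one]
    congr 1
    apply Subtype.ext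
    change e = ((HU.pr u : E) : G)
    rw [e1, map_mul, HU.pr_L he, HU.pr_V hv, mul_one]
  have h9 : ∑ u : U, (α ∘ H.pr) ⟨u, hUP u.2⟩ = 0 := h7
  rw [Finset.sum_congr rfl fun u _ => h8 u] at h9
  obtain ⟨c, hc, h10⟩ := Cfsg.Agent.H45.GG.sum_comp_surj HU.pr HU.pr_surjective (fun e : E => α ⟨e, hE e.2⟩)
  rw [h9] at h10
  exact (mul_eq_zero.1 h10.symm).resolve_left hc

end Cfsg.Agent.H743.GG.LVs
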